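import Cfsg.Agent.H553.GoodAlt

/-!
# `Good π S` : generalities (helper553)
-/

set_option autoImplicit false

open Cfsg Subgroup
open scoped Pointwise
open Cfsg.Agent.H988.CPi

namespace Cfsg.Agent.H553.ExtRed

variable {π : Set ℕ} {S : Type*} [Group S] [Finite S]

/-- if all Hall `π`-subgroups are conjugate -/
theorem good_of_conj (hconj : ∀ H K : Subgroup S, IsPiHall π H → IsPiHall π K → ∃ g : S, K = MulAut.conj g • H)
    (H : Subgroup S) (hH : IsPiHall π H) (h1 : H ≠ ⊥) (h2 : H ≠ ⊤) : Good π S :=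
  ⟨H, h1, h2, fun φ => hconj H (φ • H) hH (isPiHall_aut φ hH), H, hH, le_normalizer⟩

/-- bottom or top -/
theorem good_or_pi (hE : IsEPiGroup π S) (h2 : 2 ∈ π) (h2S : 2 ∣ Nat.card S)
    (h : ∀ H : Subgroup S, IsPiHall π H → H ≠ ⊥ → H ≠ ⊤ → Good π S) : PiN π (Nat.card S) ∨ Good π S := by
  obtain ⟨H, hH⟩ := hE
  by_cases htop : H = ⊤
  · left
    have := hH.1
    rw [htop, card_top] at this
    exact this
  · right
    refine h H hH ?_ htop
    rintro rfl
    have := hH.2 2 Nat.prime_two h2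
    rw [index_bot] at this
    exact this h2S

theorem two_dvd_card [IsSimpleGroup S] (hna : ¬ IsMulCommutative S) : 2 ∣ Nat.card S := by
  by_contra hd
  apply hna
  have h3 : Group.IsSolvable S := by
    apply Cfsg.Agent.S0205.result
    rwa [← Nat.not_even_iff_odd, even_iff_two_dvd]
  exact ⟨⟨fun a b => IsSimpleGroup.comm_iff_isSolvable.mpr h3 a b⟩⟩

theorem good_or_pi_of_conj [IsSimpleGroup S] (hna : ¬ IsMulCommutative S) (hE : IsEPiGroup π S) (h2 : 2 ∈ π)
    (hconj : ∀ H K : Subgroup S, IsPiHall π H → IsPiHall π K → ∃ g : S, K = MulAut.conj g • H) :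
    PiN π (Nat.card S) ∨ Good π S :=
  good_or_pi hE h2 (two_dvd_card hna) fun H hH h1 h2 => good_of_conj hconj H hH h1 h2

end Cfsg.Agent.H553.ExtRed
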