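import Cfsg.Agent.H553.GoodLems
import Cfsg.Agent.H560.HallKey

/-!
# `Good π S` from a canonical subgroup or from `P(z)` (helper553)

* `good_of_canonical` : a Hall `π`-subgroup lies in a proper subgroup `M` with `Aut(S)`-invariant class;
* `good_of_PZ` : `P(z)` for all `z` in an `Aut(S)`-invariant set of `t`-elements, `t ∈ π` (also for `2 ∈ π`).
-/

set_option autoImplicit false

namespace Cfsg.Agent.H553.ExtRed

open Subgroup Cfsg Cfsg.Agent.H988.CPi Cfsg.Agent.H553.OddHall Cfsg.Agent.H560.HallKey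
open scoped Pointwise

universe u

variable {π : Set ℕ} {S : Type*} [Group S] [Finite S]

omit [Finite S] in
theorem good_of_canonical (M : Subgroup S) (h1 : M ≠ ⊥) (h2 : M ≠ ⊤)
    (hc : ∀ φ : MulAut S, ∃ s : S, φ • M = MulAut.conj s • M)
    (H : Subgroup S) (hH : IsPiHall π H) (hHM : H ≤ M) : Good π S :=
  ⟨M, h1, h2, hc, H, hH, hHM.trans le_normalizer⟩

theorem good_of_PZ [IsSimpleGroup S] (hna : ¬ IsMulCommutative S) {t : ℕ} [ht : Fact t.Prime] (htπ : t ∈ π)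
    (Z : Set S) (hZ : ∀ φ : MulAut S, ∀ x ∈ Z, φ x ∈ Z) (hP : ∀ x ∈ Z, PZ π t x)
    {z : S} (hz : z ∈ Z) (hz1 : z ≠ 1) (hzt : IsPGroup t (zpowers z))
    (H : Subgroup S) (hH : IsPiHall π H) : Good π S := by
  obtain ⟨T, R, hR⟩ := exists_sylow_map (t := t) htπ hH
  have hZc : ∀ g : S, ∀ x ∈ Z, g * x * g⁻¹ ∈ Z := fun g x hx => hZ (MulAut.conj g) x hx
  -- membership
  have memH : ∀ x ∈ Z, x ∈ H → x ∈ (R : Subgroup S) := by
    intro x hx hxH
    rw [hR]
    refine ⟨_, mem_sylow_of_set (Z := {y | IsConj x y}) ?_ ?_ hH.1 T (IsConj.refl x) hxH, rfl⟩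
    · intro g y hy
      exact hy.trans (isConj_iff.mpr ⟨g, rfl⟩)
    · intro a ha b hb hab
      exact (hP x hx).pairs ha hb hab
  have leH : (R : Subgroup S) ≤ H := by rw [hR]; exact map_subtype_le _
  refine good_of_inv hna R (closure {x | x ∈ Z ∧ x ∈ (R : Subgroup S)}) ?_ ?_ ?_ H hH ?_
  · rw [closure_le]; exact fun x hx => hx.2
  · obtain ⟨Q, hQ⟩ := hzt.exists_le_sylow
    obtain ⟨c, hc⟩ := MulAction.exists_smul_eq S Q R
    have h1 : c * z * c⁻¹ ∈ (R : Subgroup S) := by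
      rw [← hc]
      change c * z * c⁻¹ ∈ MulAut.conj c • (Q : Subgroup S)
      rw [mem_pointwise_smul_iff_inv_smul_mem]
      have : (MulAut.conj c)⁻¹ • (c * z * c⁻¹) = z := by
        simp [MulAut.smul_def, ← map_inv, mul_assoc]
      rw [this]
      exact hQ (mem_zpowers z)
    intro h
    have h2 : c * z * c⁻¹ ∈ (⊥ : Subgroup S) := by
      rw [← h]
      exact subset_closure ⟨hZc c z hz, h1⟩
    rw [mem_bot, conj_eq_one_iff] at h2
    exact hz1 h2
  · intro φ hφ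
    rw [smul_eq_map, MonoidHom.map_closure]
    congr 1
    ext y
    constructor
    · rintro ⟨x, ⟨hx, hxR⟩, rfl⟩
      refine ⟨hZ φ x hx, ?_⟩
      rw [← hφ]
      exact ⟨x, hxR, rfl⟩
    · rintro ⟨hy, hyR⟩
      refine ⟨φ⁻¹ y, ⟨hZ φ⁻¹ y hy, ?_⟩, ?_⟩
      · rw [← hφ] at hyR
        exact mem_pointwise_smul_iff_inv_smul_mem.mp hyR
      · show φ (φ⁻¹ y) = y
        exact φ.apply_symm_apply y
  · refine le_normalizer_closure H _ fun g hg x hx => ⟨hZc g x hx.1, ?_⟩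
    exact memH _ (hZc g x hx.1) (H.mul_mem (H.mul_mem hg (leH hx.2)) (H.inv_mem hg))

/-- one class: `z` such that every automorphism maps `z` to a conjugate of a power... (pointwise version) -/
theorem good_of_PZ_aut [IsSimpleGroup S] (hna : ¬ IsMulCommutative S) {t : ℕ} [ht : Fact t.Prime] (htπ : t ∈ π)
    {z : S} (hP : ∀ φ : MulAut S, PZ π t (φ z)) (hz1 : z ≠ 1) (hzt : IsPGroup t (zpowers z))
    (H : Subgroup S) (hH : IsPiHall π H) : Good π S := by
  refine good_of_PZ hna htπ {x | ∃ φ : MulAut S, x = φ z} ?_ ?_ ⟨1, rfl⟩ hz1 hzt H hH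
  · rintro φ _ ⟨ψ, rfl⟩
    exact ⟨φ * ψ, rfl⟩
  · rintro _ ⟨φ, rfl⟩
    exact hP φ

end Cfsg.Agent.H553.ExtRed
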