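import Cfsg.Agent.S0117
import Cfsg.Agent.S0023
import Cfsg.Agent.OddOrderLocal.NilpotentQuotient
import Cfsg.Agent.Solvable.FpfThompson

/-!
# Finite groups with a nilpotent maximal subgroup

* `map_eq_sylow` : a Sylow `q`-subgroup of `M`, mapped into `G`, is a Sylow `q`-subgroup of `G`
  as soon as its normalizer in `G` lies in `M`.
* `isSolvable_of_coatom` : **a finite group with a nilpotent maximal subgroup whose Sylow
  2-subgroups are abelian is solvable** (Thompson; Deskins, Janko).
-/

set_option autoImplicit false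

namespace Cfsg.Agent.H553.MaxNilp

open Subgroup

/-- A subgroup normalized by a maximal subgroup `M` and not normal has normalizer `M`. -/
theorem normalizer_eq_of_coatom {G : Type*} [Group G] {M C : Subgroup G} (hM : IsCoatom M)
    (h : M ≤ normalizer (C : Set G)) (hn : ¬ C.Normal) : normalizer (C : Set G) = M := by
  rcases eq_or_lt_of_le h with h1 | h1
  · exact h1.symm
  · exact absurd (Subgroup.normalizer_eq_top_iff.mp (hM.2 _ h1)) hn

/-- A characteristic subgroup of `Q ⊲ M` is normalized by `M`. -/
theorem le_normalizer_map_map {G : Type*} [Group G] {M : Subgroup G} (Q : Subgroup M)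
    [hQ : Q.Normal] : M ≤ normalizer ((Q.map M.subtype : Subgroup G) : Set G) := by
  intro m hm
  rw [Subgroup.mem_normalizer_iff]
  intro x
  constructor
  · rintro ⟨y, hy, rfl⟩
    exact ⟨⟨m, hm⟩ * y * ⟨m, hm⟩⁻¹, hQ.conj_mem y hy ⟨m, hm⟩, rfl⟩
  · rintro ⟨y, hy, hyx⟩
    refine ⟨⟨m, hm⟩⁻¹ * y * ⟨m, hm⟩, ?_, ?_⟩
    · have := hQ.conj_mem y hy (⟨m, hm⟩⁻¹)
      simpa using this
    · simp only [Subgroup.coe_subtype] at hyx ⊢
      simp only [Subgroup.coe_mul, Subgroup.coe_inv, hyx]
      group

/-- A Sylow `q`-subgroup of `M` whose normalizer in `G` is in `M` is a Sylow subgroup of `G`. -/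
theorem map_eq_sylow {G : Type*} [Group G] [Finite G] {M : Subgroup G} {q : ℕ} [Fact q.Prime]
    (Q : Sylow q M) (h : normalizer (((Q : Subgroup M).map M.subtype : Subgroup G) : Set G) ≤ M) :
    ∃ S : Sylow q G, (S : Subgroup G) = (Q : Subgroup M).map M.subtype := by
  obtain ⟨S, hS⟩ := (Q.2.map M.subtype).exists_le_sylow
  refine ⟨S, ?_⟩
  by_contra hne
  have hlt : (Q : Subgroup M).map M.subtype < (S : Subgroup G) := lt_of_le_of_ne hS (Ne.symm hne)
  have hnil : Group.IsNilpotent (S : Subgroup G) := S.2.isNilpotent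
  have hcond := Group.normalizerCondition_of_isNilpotent (G := (S : Subgroup G))
  have h1 : ((Q : Subgroup M).map M.subtype).subgroupOf (S : Subgroup G) < ⊤ := by
    rw [lt_top_iff_ne_top]
    intro h2
    rw [Subgroup.subgroupOf_eq_top] at h2
    exact hlt.not_ge h2
  obtain ⟨x, hx1, hx2⟩ := SetLike.exists_of_lt (hcond _ h1)
  have hxN : (x : G) ∈ normalizer (((Q : Subgroup M).map M.subtype : Subgroup G) : Set G) := by
    rw [Subgroup.mem_normalizer_iff]
    intro y
    constructor
    · intro hy
      have := (Subgroup.mem_normalizer_iff.mp hx1 ⟨y, hS hy⟩).mp (by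
        rw [Subgroup.mem_subgroupOf]; exact hy)
      rw [Subgroup.mem_subgroupOf] at this
      exact this
    · intro hy
      have hyS : y ∈ (S : Subgroup G) := by
        have h3 := hS hy
        have h4 := (S : Subgroup G).mul_mem ((S : Subgroup G).mul_mem
          ((S : Subgroup G).inv_mem x.2) h3) x.2
        have h5 : (x : G)⁻¹ * ((x : G) * y * (x : G)⁻¹) * x = y := by group
        rwa [h5] at h4
      have := (Subgroup.mem_normalizer_iff.mp hx1 ⟨y, hyS⟩).mpr (by
        rw [Subgroup.mem_subgroupOf]; exact hy)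
      rw [Subgroup.mem_subgroupOf] at this
      exact this
  have hxM := h hxN
  -- the subgroup `S ⊓ M` of `M` is a `q`-group containing `Q`
  have hle : (Q : Subgroup M) ≤ (S : Subgroup G).subgroupOf M := by
    intro y hy
    rw [Subgroup.mem_subgroupOf]
    exact hS ⟨y, hy, rfl⟩
  have hp : IsPGroup q ((S : Subgroup G).subgroupOf M) :=
    S.2.comap_of_injective M.subtype M.subtype_injective
  have heq := Q.is_maximal' hp hle
  have : (⟨x, hxM⟩ : M) ∈ (S : Subgroup G).subgroupOf M := by
    rw [Subgroup.mem_subgroupOf]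
    exact x.2
  rw [heq] at this
  apply hx2
  rw [Subgroup.mem_subgroupOf]
  exact ⟨_, this, rfl⟩

/-- An abelian Sylow subgroup with nilpotent normalizer has a normal complement (Burnside). -/
theorem hasNormalPComplement_of_abelian {G : Type*} [Group G] [Finite G] {p : ℕ} [Fact p.Prime]
    (S : Sylow p G) (hab : IsMulCommutative (S : Subgroup G))
    (hnil : Group.IsNilpotent (normalizer ((S : Subgroup G) : Set G))) :
    HasNormalPComplement p G := by
  have hle : normalizer ((S : Subgroup G) : Set G) ≤ centralizer ((S : Subgroup G) : Set G) := by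
    set N : Subgroup G := normalizer ((S : Subgroup G) : Set G) with hNdef
    have hSN : (S : Subgroup G) ≤ N := le_normalizer
    have hN := Solvable.FpfThompson.hasNormalPComplement_of_isNilpotent hnil p
    let S' : Sylow p N := S.subtype hSN
    obtain ⟨K, hK, hKS⟩ := Transfer.NormalPComplement.exists_of_sylow hN S'
    have hS'coe : (S' : Subgroup N) = (S : Subgroup G).subgroupOf N := Sylow.coe_subtype _ _
    have hS'n : (S' : Subgroup N).Normal := by
      rw [hS'coe]
      exact Subgroup.normal_in_normalizer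
    intro m hm
    rw [Subgroup.mem_centralizer_iff]
    intro c hc
    have hcN : c ∈ N := hSN hc
    obtain ⟨⟨a, b⟩, hab'⟩ := (hKS.existsUnique ⟨m, hm⟩).exists
    have h1 : Commute (a : N) (⟨c, hcN⟩ : N) :=
      Subgroup.commute_of_normal_of_disjoint K (S' : Subgroup N) hK hS'n hKS.disjoint _ _ a.2
        (by rw [hS'coe, Subgroup.mem_subgroupOf]; exact hc)
    have hb : ((b : N) : G) ∈ (S : Subgroup G) := by
      have h : ∀ x : N, x ∈ (S' : Subgroup N) → (x : G) ∈ (S : Subgroup G) := by
        rw [hS'coe]
        intro x hx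
        exact hx
      exact h b b.2
    have h2 : c * ((b : N) : G) = ((b : N) : G) * c := by
      have := hab.is_comm.comm (⟨c, hc⟩ : (S : Subgroup G)) ⟨_, hb⟩
      exact congrArg Subtype.val this
    have h3 : ((a : N) : G) * c = c * ((a : N) : G) := congrArg Subtype.val h1
    have h4 : m = ((a : N) : G) * ((b : N) : G) := (congrArg Subtype.val hab').symm
    rw [h4, ← mul_assoc, ← h3, mul_assoc, h2, mul_assoc]
  exact ⟨S, (MonoidHom.transferSylow S hle).ker, inferInstance,
    MonoidHom.ker_transferSylow_isComplement' S hle⟩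

/-- The case in which the maximal subgroup `M` has trivial core. -/
theorem isSolvable_of_coatom_core {G : Type*} [Group G] [Finite G] (M : Subgroup G)
    (hM : IsCoatom M) (hnil : Group.IsNilpotent M)
    (h2 : ∀ P : Sylow 2 M, IsMulCommutative (P : Subgroup M))
    (hcore : ∀ N : Subgroup G, N.Normal → N ≤ M → N = ⊥) : Group.IsSolvable G := by
  have hnorm : ∀ C : Subgroup G, C ≤ M → C ≠ ⊥ → M ≤ normalizer (C : Set G) →
      normalizer (C : Set G) = M := fun C h1 h3 h4 =>
    normalizer_eq_of_coatom hM h4 (fun h => h3 (hcore C h h1))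
  -- normal complements for all primes dividing `|M|`
  have hcompl : ∀ q : ℕ, q.Prime → q ∣ Nat.card M → HasNormalPComplement q G := by
    intro q hq hqM
    have : Fact q.Prime := ⟨hq⟩
    obtain ⟨Q⟩ : Nonempty (Sylow q M) := inferInstance
    have hQn : (Q : Subgroup M).Normal := by
      have := (Group.isNilpotent_of_finite_tfae (G := M)).out 0 3
      exact this.mp hnil q ⟨hq⟩ Q
    have hQ1 : (Q : Subgroup M) ≠ ⊥ := Q.ne_bot_of_dvd_card hqM
    set Q' : Subgroup G := (Q : Subgroup M).map M.subtype with hQ'
    have hQ'M : Q' ≤ M := Subgroup.map_subtype_le _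
    have hQ'1 : Q' ≠ ⊥ := by
      rw [hQ', Ne, Subgroup.map_eq_bot_iff_of_injective _ M.subtype_injective]
      exact hQ1
    have hNQ : normalizer (Q' : Set G) = M := hnorm Q' hQ'M hQ'1 (le_normalizer_map_map _)
    obtain ⟨S, hS⟩ := map_eq_sylow Q (le_of_eq hNQ)
    by_cases hq2 : q = 2
    · subst hq2
      refine hasNormalPComplement_of_abelian S ?_ ?_
      · rw [hS]
        have := h2 Q
        have e := (Q : Subgroup M).equivMapOfInjective M.subtype M.subtype_injective
        refine ⟨⟨fun a b => ?_⟩⟩
        obtain ⟨a, rfl⟩ := e.surjective a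
        obtain ⟨b, rfl⟩ := e.surjective b
        rw [← map_mul, ← map_mul, this.is_comm.comm]
      · rw [hS, ← hQ', hNQ]
        exact hnil
    · rw [S0117.result hq2 S]
      have hSp : IsPGroup q (S : Subgroup G) := S.2
      have hne : (S : Subgroup G) ≠ ⊥ := by rw [hS]; exact hQ'1
      have hNS : M ≤ normalizer (centerThompsonOf q (S : Subgroup G) : Set G) := by
        have h5 : M = normalizer ((S : Subgroup G) : Set G) := by rw [hS]; exact hNQ.symm
        intro m hm
        rw [h5, Subgroup.mem_normalizer_iff_map_conj_eq] at hm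
        rw [Subgroup.mem_normalizer_iff_map_conj_eq]
        refine (S0117.map_centerThompsonOf q (MulAut.conj m).toMonoidHom (S : Subgroup G)
          ((MulAut.conj m).injective.injOn)).trans ?_
        exact congrArg (centerThompsonOf q) hm
      have h6 := hnorm (centerThompsonOf q (S : Subgroup G))
        ((S0117.centerThompsonOf_le q _).trans (by rw [hS]; exact hQ'M))
        (S0117.centerThompsonOf_ne_bot hSp hne) hNS
      rw [h6]
      exact Solvable.FpfThompson.hasNormalPComplement_of_isNilpotent hnil q
  -- the normal Hall subgroup `K`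
  obtain ⟨K, hKn, hK1, hK2, hK3⟩ := OddOrderLocal.NilpotentQuotient.exists_normal_hall (X := G)
    {q | ¬ q ∣ Nat.card M} (fun q hq _ hq2 => hcompl q hq (by
      simpa using hq2))
  have hcop : (Nat.card M).Coprime (Nat.card K) := by
    rw [Nat.coprime_iff_gcd_eq_one]
    by_contra hne
    obtain ⟨q, hq, hqd⟩ := Nat.exists_prime_and_dvd hne
    exact hK1 q hq (hqd.trans (Nat.gcd_dvd_right _ _)) (hqd.trans (Nat.gcd_dvd_left _ _))
  have hsolM : Group.IsSolvable M := inferInstance
  have hsolQ : Group.IsSolvable (G ⧸ K) := inferInstance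
  suffices hK : Group.IsSolvable K by
    exact Group.isSolvable_of_ker_le_range K.subtype (QuotientGroup.mk' K)
      (by rw [QuotientGroup.ker_mk', Subgroup.range_subtype])
  by_cases hK1' : K = ⊥
  · rw [hK1']
    infer_instance
  obtain ⟨r, hr, hrd⟩ := Nat.exists_prime_and_dvd (n := Nat.card K)
    (fun h => hK1' (Subgroup.eq_bot_of_card_eq K h))
  have : Fact r.Prime := ⟨hr⟩
  obtain ⟨R, hR⟩ := S0023.result M K (by
    rw [Subgroup.normalizer_eq_top_iff.mpr hKn]; exact le_top) hcop (Or.inl hsolM) r
  have hR1 : (R : Subgroup K) ≠ ⊥ := R.ne_bot_of_dvd_card hrd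
  set R' : Subgroup G := (R : Subgroup K).map K.subtype with hR'
  have hR'K : R' ≤ K := Subgroup.map_subtype_le _
  have hR'1 : R' ≠ ⊥ := by
    rw [hR', Ne, Subgroup.map_eq_bot_iff_of_injective _ K.subtype_injective]
    exact hR1
  -- `M R' = G`
  have hdisj : ∀ x ∈ M, x ∈ K → x = 1 := by
    intro x hxM hxK
    have h1 := Subgroup.orderOf_dvd_natCard M hxM
    have h3 := Subgroup.orderOf_dvd_natCard K hxK
    exact orderOf_eq_one_iff.mp (Nat.eq_one_of_dvd_coprimes hcop h1 h3)
  have hlt : M < M ⊔ R' := by
    refine lt_of_le_of_ne le_sup_left (fun h => hR'1 ?_)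
    rw [eq_bot_iff]
    intro x hx
    have : x ∈ M := by rw [h]; exact (le_sup_right : R' ≤ M ⊔ R') hx
    rw [Subgroup.mem_bot]
    exact hdisj x this (hR'K hx)
  have htop : M ⊔ R' = ⊤ := hM.2 _ hlt
  have hKR : K = R' := by
    apply le_antisymm _ hR'K
    intro k hk
    have hk' : k ∈ R' ⊔ M := by rw [sup_comm, htop]; trivial
    obtain ⟨x, hx, m, hm, hxm⟩ : ∃ x ∈ R', ∃ m ∈ M, x * m = k := by
      have hset := Subgroup.coe_mul_of_right_le_normalizer_left R' M hR
      have hk2 : k ∈ ((R' ⊔ M : Subgroup G) : Set G) := hk'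
      rw [hset] at hk2
      exact Set.mem_mul.mp hk2
    have hmK : m ∈ K := by
      have : m = x⁻¹ * k := by rw [← hxm]; group
      rw [this]
      exact K.mul_mem (K.inv_mem (hR'K hx)) hk
    rw [← hxm, hdisj m hm hmK, mul_one]
    exact hx
  have hKr : IsPGroup r K := by
    have := R.2.map K.subtype
    rw [← hR', ← hKR] at this
    exact this
  have := hKr.isNilpotent
  infer_instance

/-- Maximal subgroups containing a normal subgroup are maximal in the quotient. -/
theorem isCoatom_map_mk {G : Type*} [Group G] {M : Subgroup G} (hM : IsCoatom M) (N : Subgroup G)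
    [N.Normal] (hN : N ≤ M) : IsCoatom (M.map (QuotientGroup.mk' N)) := by
  have hcm : (M.map (QuotientGroup.mk' N)).comap (QuotientGroup.mk' N) = M := by
    rw [Subgroup.comap_map_eq, QuotientGroup.ker_mk', sup_eq_left]
    exact hN
  constructor
  · intro h
    rw [h, Subgroup.comap_top] at hcm
    exact hM.1 hcm.symm
  · intro K hK
    have h1 : M < K.comap (QuotientGroup.mk' N) := by
      rw [← hcm]
      exact (Subgroup.comap_lt_comap_of_surjective (QuotientGroup.mk'_surjective N)).mpr hK
    have h2 := hM.2 _ h1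
    rw [← Subgroup.map_comap_eq_self_of_surjective (QuotientGroup.mk'_surjective N) K, h2,
      Subgroup.map_top_of_surjective _ (QuotientGroup.mk'_surjective N)]

theorem isSolvable_aux (n : ℕ) : ∀ {G : Type*} [Group G] [Finite G] (_ : Nat.card G ≤ n)
    (M : Subgroup G) (_ : IsCoatom M) (_ : Group.IsNilpotent M)
    (_ : ∀ P : Sylow 2 M, IsMulCommutative (P : Subgroup M)), Group.IsSolvable G := by
  induction n with
  | zero =>
    intro G _ _ hn
    exact absurd hn (by have := Nat.card_pos (α := G); omega)
  | succ n ih =>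
    intro G _ _ hn M hM hnil h2
    by_cases hcore : ∀ N : Subgroup G, N.Normal → N ≤ M → N = ⊥
    · exact isSolvable_of_coatom_core M hM hnil h2 hcore
    · push Not at hcore
      obtain ⟨N, hN, hNM, hN1⟩ := hcore
      have hsurj : Function.Surjective ((QuotientGroup.mk' N).subgroupMap M) :=
        (QuotientGroup.mk' N).subgroupMap_surjective M
      have hcard : Nat.card (G ⧸ N) ≤ n := by
        have h3 := Subgroup.card_eq_card_quotient_mul_card_subgroup N
        have h4 : 1 < Nat.card N := (Subgroup.one_lt_card_iff_ne_bot N).mpr hN1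
        have h5 : 0 < Nat.card (G ⧸ N) := Nat.card_pos
        have h6 : Nat.card (G ⧸ N) * 2 ≤ Nat.card (G ⧸ N) * Nat.card N :=
          Nat.mul_le_mul_left _ h4
        omega
      have hsol : Group.IsSolvable (G ⧸ N) := by
        refine ih hcard (M.map (QuotientGroup.mk' N)) (isCoatom_map_mk hM N hNM)
          (Group.nilpotent_of_surjective _ hsurj) ?_
        intro P
        have : Fact (Nat.Prime 2) := ⟨Nat.prime_two⟩
        obtain ⟨Q, hQ⟩ := Sylow.mapSurjective_surjective hsurj 2 P
        have hQc := h2 Q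
        have hPc : (P : Subgroup _) = (Q : Subgroup M).map ((QuotientGroup.mk' N).subgroupMap M) := by
          rw [← hQ]
          rfl
        refine ⟨⟨fun a b => ?_⟩⟩
        have ha := a.2
        have hb := b.2
        have h7 : ∀ x ∈ (P : Subgroup (M.map (QuotientGroup.mk' N))),
            ∃ y ∈ (Q : Subgroup M), (QuotientGroup.mk' N).subgroupMap M y = x := by
          rw [hPc]
          rintro x ⟨y, hy, rfl⟩
          exact ⟨y, hy, rfl⟩
        obtain ⟨x, hx, hxa⟩ := h7 a a.2
        obtain ⟨y, hy, hyb⟩ := h7 b b.2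
        apply Subtype.ext
        rw [Subgroup.coe_mul, Subgroup.coe_mul, ← hxa, ← hyb, ← map_mul, ← map_mul]
        have h8 := hQc.is_comm.comm (⟨x, hx⟩ : (Q : Subgroup M)) ⟨y, hy⟩
        have h9 : x * y = y * x := congrArg Subtype.val h8
        rw [h9]
      have hNsol : Group.IsSolvable N := by
        have : Group.IsSolvable M := inferInstance
        exact Group.isSolvable_of_isSolvable_injective (Subgroup.inclusion_injective hNM)
      exact Group.isSolvable_of_ker_le_range N.subtype (QuotientGroup.mk' N)
        (by rw [QuotientGroup.ker_mk', Subgroup.range_subtype])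

/-- **A finite group with a nilpotent maximal subgroup whose Sylow 2-subgroups are abelian is
solvable.** -/
theorem isSolvable_of_coatom {G : Type*} [Group G] [Finite G] (M : Subgroup G)
    (hM : IsCoatom M) (hnil : Group.IsNilpotent M)
    (h2 : ∀ P : Sylow 2 M, IsMulCommutative (P : Subgroup M)) : Group.IsSolvable G :=
  isSolvable_aux (Nat.card G) le_rfl M hM hnil h2

end Cfsg.Agent.H553.MaxNilp
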